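import Cfsg.Agent.Lib.ToddCox.Rep
set_option autoImplicit false
set_option maxRecDepth 100000
namespace Cfsg.Agent.Lib.ToddCox.A7T
def T_0 : ℕ := 0x40001800050000c0002000040000
def T_1 : ℕ := 0x5000180003000100002000040000
def T_2 : ℕ := 0x5000180004000080003000040000
def T_3 : ℕ := 0x50001800040000c0001000080000
def T_4 : ℕ := 0x50001800040000c0002000000001
def T_5 : ℕ := 0x50001000060000c0002000040000
end Cfsg.Agent.Lib.ToddCox.A7T
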